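import Cfsg.Agent.H178.RG.Defs

/-!
# S5714, TEAM RG, node B3': the number of symmetric sequences
-/

set_option autoImplicit false

namespace Cfsg.Agent.H388.RG

open Cfsg Cfsg.Agent.H178.RG
open Polynomial

variable {F : Type} [Field F]

/-- the recurrence -/
def Rec (f : F[X]) (c : ℤ → F) : Prop := ∀ m : ℤ, (∑ i ∈ Finset.range (f.natDegree + 1), f.coeff i * c (m + i)) = 0

theorem rec_iff (f : F[X]) (c : ℤ → F) : (∀ m : ℤ, (f.sum fun i a => a * c (m + i)) = 0) ↔ Rec f c := by
  unfold Rec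
  refine forall_congr' fun m => ?_
  rw [sum_over_range _ (fun n => by simp)]

theorem Rec.sub {f : F[X]} {c d : ℤ → F} (hc : Rec f c) (hd : Rec f d) : Rec f (fun i => c i - d i) := by
  intro m
  have h1 := hc m
  have h2 := hd m
  have : (∑ i ∈ Finset.range (f.natDegree + 1), f.coeff i * (c (m + i) - d (m + i))) =
      (∑ i ∈ Finset.range (f.natDegree + 1), f.coeff i * c (m + i)) -
      ∑ i ∈ Finset.range (f.natDegree + 1), f.coeff i * d (m + i) := by
    rw [← Finset.sum_sub_distrib]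
    exact Finset.sum_congr rfl fun i _ => by ring
  rw [this, h1, h2, sub_zero]

theorem Rec.add_shift {f : F[X]} {c d : ℤ → F} (hc : Rec f c) (hd : Rec f d) :
    Rec f (fun i => c i + d (i + 1)) := by
  intro m
  have h1 := hc m
  have h2 := hd (m + 1)
  have : (∑ i ∈ Finset.range (f.natDegree + 1), f.coeff i * (c (m + i) + d (m + i + 1))) =
      (∑ i ∈ Finset.range (f.natDegree + 1), f.coeff i * c (m + i)) +
      ∑ i ∈ Finset.range (f.natDegree + 1), f.coeff i * d (m + 1 + i) := by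
    rw [← Finset.sum_add_distrib]
    exact Finset.sum_congr rfl fun i _ => by rw [add_right_comm m i 1]; ring
  rw [this, h1, h2, add_zero]

/-- a sequence with the recurrence `f` is determined by `deg f` consecutive values -/
theorem Rec.eq_zero {f : F[X]} (hf : f.Monic) (h0 : f.coeff 0 ≠ 0) {c : ℤ → F} (hc : Rec f c)
    (h : ∀ i : ℕ, i < f.natDegree → c i = 0) (m : ℤ) : c m = 0 := by
  have hpos : ∀ k : ℕ, c k = 0 := by
    intro k
    induction k using Nat.strong_induction_on with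
    | _ k ih =>
      by_cases hk : k < f.natDegree
      · exact h k hk
      · push Not at hk
        obtain ⟨l, rfl⟩ := Nat.exists_eq_add_of_le' hk
        have h1 := hc (l : ℤ)
        rw [Finset.sum_range_succ, hf.coeff_natDegree, one_mul] at h1
        rw [Finset.sum_eq_zero (fun i hi => by
          have hi' := Finset.mem_range.mp hi
          have : c ((l : ℤ) + i) = 0 := by
            have := ih (l + i) (by omega)
            simpa using this
          rw [this, mul_zero]), zero_add] at h1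
        simpa using h1
  have hneg : ∀ k : ℕ, c (-(k : ℤ)) = 0 := by
    intro k
    induction k using Nat.strong_induction_on with
    | _ k ih =>
      rcases Nat.eq_zero_or_pos k with rfl | hk
      · simpa using hpos 0
      · have h1 := hc (-(k : ℤ))
        rw [Finset.sum_range_succ'] at h1
        rw [Finset.sum_eq_zero (fun i _ => by
          have : c (-(k : ℤ) + ((i + 1 : ℕ) : ℤ)) = 0 := by
            by_cases hik : i + 1 < k
            · have := ih (k - (i + 1)) (by omega)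
              rw [show (-(k : ℤ) + ((i + 1 : ℕ) : ℤ)) = -((k - (i + 1) : ℕ) : ℤ) from by omega]
              exact this
            · have := hpos (i + 1 - k)
              rw [show (-(k : ℤ) + ((i + 1 : ℕ) : ℤ)) = ((i + 1 - k : ℕ) : ℤ) from by omega]
              exact this
          rw [this, mul_zero]), zero_add] at h1
        simpa [h0] using h1
  obtain ⟨k, rfl | rfl⟩ := m.eq_nat_or_neg
  · exact hpos k
  · exact hneg k

theorem SymSeq.rec' {s : ℕ} {ε : F} {f : F[X]} {c : ℤ → F} (hc : c ∈ SymSeq s ε f) : Rec f c := (rec_iff f c).1 hc.1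

theorem SymSeq.symm' {ε : F} {f : F[X]} {c : ℤ → F} (hc : c ∈ SymSeq 1 ε f) (i : ℤ) : c (-i) = ε * c i := by
  have := hc.2 i
  rwa [pow_one] at this

theorem symSeq_ext {s : ℕ} {ε : F} {f : F[X]} (hf : f.Monic) (h0 : f.coeff 0 ≠ 0) {c d : ℤ → F} (hc : c ∈ SymSeq s ε f)
    (hd : d ∈ SymSeq s ε f) (h : ∀ i : ℕ, i < f.natDegree → c i = d i) : c = d := by
  funext m
  have := ((SymSeq.rec' hc).sub (SymSeq.rec' hd)).eq_zero hf h0 (fun i hi => sub_eq_zero.2 (h i hi)) m
  exact sub_eq_zero.1 this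

variable [Fintype F]

/-- the set of symmetric sequences is finite -/
theorem symSeq_finite {s : ℕ} {ε : F} {f : F[X]} (hf : f.Monic) (h0 : f.coeff 0 ≠ 0) : (SymSeq s ε f).Finite := by
  have : Function.Injective (fun (c : SymSeq s ε f) (i : Fin f.natDegree) => c.1 (i : ℕ)) := by
    intro c d h
    apply Subtype.ext
    refine symSeq_ext hf h0 c.2 d.2 fun i hi => ?_
    exact congrFun h ⟨i, hi⟩
  have h2 := Finite.of_injective _ this
  exact Set.toFinite _

/-- counting by an injection -/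
theorem ncard_le_of_inj {α β : Type} [Finite β] {S : Set α} (φ : α → β) (h : ∀ a ∈ S, ∀ b ∈ S, φ a = φ b → a = b) :
    S.Finite ∧ S.ncard ≤ Nat.card β := by
  have hinj : Function.Injective (fun a : S => φ a.1) := fun a b hab => Subtype.ext (h a.1 a.2 b.1 b.2 hab)
  have := Finite.of_injective _ hinj
  refine ⟨Set.toFinite _, ?_⟩
  rw [← Nat.card_coe_set_eq]
  exact Nat.card_le_card_of_injective _ hinj

/-- **B3'** -/
theorem card_symSeq' {ε : F} (hε : ε ≠ 0) {f : F[X]} (hf : f.Monic) (h0 : f.coeff 0 ≠ 0) :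
    (SymSeq 1 ε f).Finite ∧ ((SymSeq 1 ε f).ncard : ℝ) ≤ √(Fintype.card F) ^ (f.natDegree + 2) := by
  refine ⟨symSeq_finite hf h0, ?_⟩
  have key := ncard_le_of_inj (S := SymSeq 1 ε f ×ˢ SymSeq 1 ε f) (β := (Fin f.natDegree → F) × F × F)
    (fun cd => (fun i => cd.1 (i : ℕ) + cd.2 ((i : ℕ) + 1), cd.2 0, cd.2 1)) ?_
  · have h2 := key.2
    rw [Set.ncard_prod] at h2
    have hcard : Nat.card ((Fin f.natDegree → F) × F × F) = Fintype.card F ^ (f.natDegree + 2) := by
      rw [Nat.card_prod, Nat.card_prod, Nat.card_fun, Nat.card_eq_fintype_card, Nat.card_eq_fintype_card,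
        Fintype.card_fin]
      ring
    rw [hcard] at h2
    have h3 : ((SymSeq 1 ε f).ncard : ℝ) ^ 2 ≤ (√(Fintype.card F) ^ (f.natDegree + 2)) ^ 2 := by
      rw [← pow_mul, mul_comm, pow_mul, Real.sq_sqrt (Nat.cast_nonneg _), sq]
      exact_mod_cast h2
    exact le_of_sq_le_sq h3 (by positivity)
  · rintro ⟨c, c'⟩ ⟨hc, hc'⟩ ⟨d, d'⟩ ⟨hd, hd'⟩ heq
    dsimp only at hc hc' hd hd'
    simp only [Prod.mk.injEq] at heq
    obtain ⟨h1, h2, h3⟩ := heq
    have hr : ∀ m : ℤ, (c m + c' (m + 1)) - (d m + d' (m + 1)) = 0 :=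
      (((SymSeq.rec' hc).add_shift (SymSeq.rec' hc')).sub
        ((SymSeq.rec' hd).add_shift (SymSeq.rec' hd'))).eq_zero hf h0 fun i hi => by
          have := congrFun h1 ⟨i, hi⟩
          exact sub_eq_zero.2 this
    -- `c - d = - T (c' - d')`
    have hp : ∀ i : ℤ, c' (i + 2) - d' (i + 2) = c' i - d' i := by
      intro i
      have e1 := hr (i + 1)
      have e2 := hr (-(i + 1))
      rw [SymSeq.symm' hc, SymSeq.symm' hd, show -(i + 1) + 1 = -i from by ring, SymSeq.symm' hc',
        SymSeq.symm' hd'] at e2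
      rw [show i + 1 + 1 = i + 2 from by ring] at e1
      have e3 : ε * ((c' (i + 2) - d' (i + 2)) - (c' i - d' i)) = 0 := by
        linear_combination ε * e1 - e2
      rcases mul_eq_zero.1 e3 with h | h
      · exact absurd h hε
      · exact sub_eq_zero.1 h
    have hper : ∀ k : ℕ, (c' (2 * k) - d' (2 * k) = 0 ∧ c' (2 * k + 1) - d' (2 * k + 1) = 0) ∧
        (c' (-(2 * k)) - d' (-(2 * k)) = 0 ∧ c' (-(2 * k) + 1) - d' (-(2 * k) + 1) = 0) := by
      intro k
      induction k with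
      | zero => simp [h2, h3]
      | succ k ih =>
        obtain ⟨⟨i1, i2⟩, i3, i4⟩ := ih
        refine ⟨⟨?_, ?_⟩, ?_, ?_⟩
        · rw [show (2 * ((k + 1 : ℕ) : ℤ)) = 2 * k + 2 from by push_cast; ring, hp, i1]
        · rw [show (2 * ((k + 1 : ℕ) : ℤ)) + 1 = 2 * k + 1 + 2 from by push_cast; ring, hp, i2]
        · rw [← hp, show (-(2 * ((k + 1 : ℕ) : ℤ))) + 2 = -(2 * k) from by push_cast; ring, i3]
        · rw [← hp, show (-(2 * ((k + 1 : ℕ) : ℤ))) + 1 + 2 = -(2 * k) + 1 from by push_cast; ring, i4]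
    have h' : ∀ i : ℤ, c' i - d' i = 0 := by
      intro i
      rcases Int.even_or_odd' i with ⟨k, rfl | rfl⟩
      · obtain ⟨n, rfl | rfl⟩ := k.eq_nat_or_neg
        · exact (hper n).1.1
        · have := (hper n).2.1
          rwa [show (-(2 * (n : ℤ))) = 2 * -(n : ℤ) from by ring] at this
      · obtain ⟨n, rfl | rfl⟩ := k.eq_nat_or_neg
        · exact (hper n).1.2
        · have := (hper n).2.2
          rwa [show (-(2 * (n : ℤ))) = 2 * -(n : ℤ) from by ring] at this
    refine Prod.ext (funext fun i => ?_) (funext fun i => sub_eq_zero.1 (h' i))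
    have e1 := hr i
    have e2 := h' (i + 1)
    show c i = d i
    linear_combination e1 - e2

/-! ### the special sequences -/

theorem even_iff_two : Fintype.card F % 2 = 0 ↔ (2 : F) = 0 := by
  rw [← FiniteField.even_card_iff_char_two (F := F)]
  have h1 : ((2 : ℕ) : F) = 0 ↔ ringChar F ∣ 2 := ringChar.spec F 2
  rw [Nat.cast_ofNat] at h1
  rw [h1]
  constructor
  · intro h
    rw [h]
  · intro h
    rcases (Nat.dvd_prime Nat.prime_two).1 h with h | h
    · exact absurd h CharP.ringChar_ne_one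
    · exact h

omit [Fintype F] in
theorem rec_X_sub_C {ζ : F} {c : ℤ → F} (hc : Rec (X - C ζ) c) (m : ℤ) : c (m + 1) = ζ * c m := by
  have h := hc m
  rw [natDegree_X_sub_C] at h
  simp [Finset.sum_range_succ, coeff_X, coeff_C] at h
  linear_combination h

/-- (i) -/
theorem card_symSeq_one {ζ : F} (hζ : ζ ^ 2 = 1) (ε : F) :
    (SymSeq 1 ε (X - C ζ)).Finite ∧ (SymSeq 1 ε (X - C ζ)).ncard ≤ Fintype.card F := by
  have hz : ζ ≠ 0 := by
    rintro rfl
    simp at hζ
  rw [← Nat.card_eq_fintype_card]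
  refine ncard_le_of_inj (fun c => c 0) fun c hc d hd h => ?_
  refine symSeq_ext (monic_X_sub_C ζ) (by simpa using hz) hc hd fun i hi => ?_
  rw [natDegree_X_sub_C] at hi
  obtain rfl : i = 0 := by omega
  exact h

omit [Fintype F] in
/-- (i') -/
theorem symSeq_one_eq_zero {ζ : F} (hζ : ζ ^ 2 = 1) {ε : F} {c : ℤ → F} (hc : c ∈ SymSeq 1 ε (X - C ζ)) (h0 : c 0 = 0) :
    c = 0 := by
  have hz : ζ ≠ 0 := by
    rintro rfl
    simp at hζ
  funext m
  refine (SymSeq.rec' hc).eq_zero (monic_X_sub_C ζ) (by simpa using hz) (fun i hi => ?_) m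
  rw [natDegree_X_sub_C] at hi
  obtain rfl : i = 0 := by omega
  exact h0

omit [Fintype F] in
theorem symSeq_one_zero {ζ : F} (hζ : ζ ^ 2 = 1) (ε : F) : {c ∈ SymSeq 1 ε (X - C ζ) | c 0 = 0} = {0} := by
  apply Set.Subset.antisymm
  · rintro c ⟨hc, h0⟩
    exact symSeq_one_eq_zero hζ hc h0
  · rintro c rfl
    refine ⟨⟨fun m => ?_, fun i => by simp⟩, rfl⟩
    simp [Polynomial.sum_def]

omit [Fintype F] in
theorem rec_sq {ζ : F} {c : ℤ → F} (hc : Rec ((X - C ζ) ^ 2) c) (m : ℤ) :
    c (m + 2) - 2 * ζ * c (m + 1) + ζ ^ 2 * c m = 0 := by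
  have h := hc m
  rw [natDegree_pow, natDegree_X_sub_C] at h
  have e : (X - C ζ) ^ 2 = X ^ 2 - C (2 * ζ) * X + C (ζ ^ 2) := by
    simp only [C_mul, C_pow]
    rw [show (C (2 : F)) = 2 from rfl]
    ring
  rw [e] at h
  simp [-map_pow, Finset.sum_range_succ, coeff_X, coeff_C, coeff_X_pow] at h
  linear_combination h

/-- (ii) -/
theorem card_symSeq_sq (hF : Odd (Fintype.card F)) {ζ : F} (hζ : ζ ^ 2 = 1) :
    (SymSeq 1 1 ((X - C ζ) ^ 2)).Finite ∧ (SymSeq 1 1 ((X - C ζ) ^ 2)).ncard ≤ Fintype.card F := by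
  have hz : ζ ≠ 0 := by
    rintro rfl
    simp at hζ
  have h2 : (2 : F) ≠ 0 := by
    intro h
    have h3 := Nat.odd_iff.1 hF
    have := (even_iff_two (F := F)).2 h
    omega
  rw [← Nat.card_eq_fintype_card]
  refine ncard_le_of_inj (fun c => c 0) fun c hc d hd h => ?_
  have hm : ((X - C ζ) ^ 2).Monic := (monic_X_sub_C ζ).pow 2
  refine symSeq_ext hm (by simp [coeff_zero_eq_eval_zero, hz]) hc hd fun i hi => ?_
  rw [natDegree_pow, natDegree_X_sub_C] at hi
  have h' : c 0 = d 0 := h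
  obtain rfl | rfl : i = 0 ∨ i = 1 := by omega
  · exact h'
  · have e1 := rec_sq (SymSeq.rec' hc) (-1)
    have e2 := rec_sq (SymSeq.rec' hd) (-1)
    rw [SymSeq.symm' hc, hζ] at e1
    rw [SymSeq.symm' hd, hζ] at e2
    norm_num at e1 e2
    have e3 : 2 * (c 1 - d 1) = 0 := by
      linear_combination e1 - e2 + 2 * ζ * h'
    rcases mul_eq_zero.1 e3 with h | h
    · exact absurd h h2
    · simpa using sub_eq_zero.1 h

omit [Fintype F] in
theorem rec_cube {c : ℤ → F} (hc : Rec ((X - 1) ^ 3) c) (m : ℤ) :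
    c (m + 3) - 3 * c (m + 2) + 3 * c (m + 1) - c m = 0 := by
  have h := hc m
  have hd : ((X - 1 : F[X]) ^ 3).natDegree = 3 := by
    rw [← C_1, natDegree_pow, natDegree_X_sub_C]
  rw [hd] at h
  have e : (X - 1 : F[X]) ^ 3 = X ^ 3 - C 3 * X ^ 2 + C 3 * X - C 1 := by
    rw [show (C (3 : F)) = 3 from rfl, C_1]
    ring
  rw [e] at h
  simp [Finset.sum_range_succ, coeff_X, coeff_one, coeff_X_pow] at h
  linear_combination h

/-- (iii) (any finite field) -/
theorem card_symSeq_cube :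
    {c ∈ SymSeq (F := F) 1 1 ((X - 1) ^ 3) | c 0 = 0}.Finite ∧
    {c ∈ SymSeq (F := F) 1 1 ((X - 1) ^ 3) | c 0 = 0}.ncard ≤ Fintype.card F := by
  rw [← Nat.card_eq_fintype_card]
  refine ncard_le_of_inj (fun c => c 1) fun c hc d hd h => ?_
  have hm : ((X - 1 : F[X]) ^ 3).Monic := by
    rw [← C_1]
    exact (monic_X_sub_C 1).pow 3
  refine symSeq_ext hm (by simp [coeff_zero_eq_eval_zero]) hc.1 hd.1 fun i hi => ?_
  rw [← C_1, natDegree_pow, natDegree_X_sub_C] at hi
  have h' : c 1 = d 1 := h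
  obtain rfl | rfl | rfl : i = 0 ∨ i = 1 ∨ i = 2 := by omega
  · have := hc.2
    have := hd.2
    simp_all
  · simpa using h'
  · have e1 := rec_cube (SymSeq.rec' hc.1) (-1)
    have e2 := rec_cube (SymSeq.rec' hd.1) (-1)
    rw [SymSeq.symm' hc.1] at e1
    rw [SymSeq.symm' hd.1] at e2
    norm_num at e1 e2
    have e3 := hc.2
    have e4 := hd.2
    push_cast
    linear_combination e1 - e2 + 4 * h' - 3 * e3 + 3 * e4

end Cfsg.Agent.H388.RG
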